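import Cfsg.Agent.H327.COV.Count
import Cfsg.Agent.H970.Om7.Main

/-!
# The element of order 18 of `Ω₇(3)` (S2499)
-/

set_option autoImplicit false

namespace Cfsg.Agent.H327.COV.El18

open QuadraticMap Module
open Cfsg.Agent.LieClassical.OrthCore
open Cfsg.Agent.H858.TOrth (fix mem_fix ND)
open Cfsg.Agent.H883.Sub (perp mem_perp mem_perp' finrank_perp)
open Cfsg.Agent.H160.QSpin Cfsg.Agent.H160.QDisc Cfsg.Agent.H160.QSemi Cfsg.Agent.H160.QSplit Cfsg.Agent.H160.QReal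
  Cfsg.Agent.H160.QModel

abbrev K := ZMod 3

theorem two_ne : (2 : K) ≠ 0 := by decide

theorem chi : quadraticChar K (-1) = -1 := by decide

/-- the data -/
structure DD (Q5 : QuadraticForm K (Fin 5 → K)) (J : (Fin 5 → K) ≃ₗ[K] (Fin 5 → K)) (c : K) (δ : ℤ) : Prop where
  nd : Nondeg Q5
  dc5 : dc Q5 = δ
  el : El Q5 1 J
  n5 : (en J - 1) ^ 5 = 0
  n4 : (en J - 1) ^ 4 ≠ 0
  c0 : c ≠ 0
  dc1 : dc (oneF c) = δ
  pm : δ = 1 ∨ δ = -1

theorem exists_DD {δ : ℤ} (hδ : δ = 1 ∨ δ = -1) : ∃ Q5 J c, DD Q5 J c δ := by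
  obtain ⟨Q5, J, h1, h2, h3, h4, h5⟩ := exists_jordan_dc (F := K) two_ne (n := 5) (by decide) hδ
  obtain ⟨c, h6, h7⟩ := exists_oneF (F := K) two_ne hδ
  exact ⟨Q5, J, c, h1, h2, h3, h4, h5, h6, h7, hδ⟩

theorem nil_pow {V : Type*} [AddCommGroup V] [Module K V] [FiniteDimensional K V] {N : Module.End K V} {n m : ℕ}
    (hN : N ^ n = 0) (h : finrank K V = m) : N ^ m = 0 := by
  have h1 := IsNilpotent.charpoly_eq_X_pow_finrank (φ := N) ⟨n, hN⟩
  have h2 := LinearMap.aeval_self_charpoly N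
  rw [h1, h] at h2
  simpa using h2

theorem restrict_pow' {V : Type*} [AddCommGroup V] [Module K V] {N : Module.End K V} {X : Submodule K V}
    (hX : ∀ x ∈ X, N x ∈ X) (k : ℕ) (x : X) : ((((N.restrict hX) ^ k) x : X) : V) = (N ^ k) (x : V) := by
  induction k with
  | zero => rfl
  | succ k ih =>
    rw [pow_succ', pow_succ', Module.End.mul_apply, Module.End.mul_apply, ← ih]
    rfl

theorem restrict_nil {V : Type*} [AddCommGroup V] [Module K V] [FiniteDimensional K V] {N : Module.End K V}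
    {n m : ℕ} (hN : N ^ n = 0) {X : Submodule K V} (hX : ∀ x ∈ X, N x ∈ X) (h : finrank K X = m) :
    ∀ x ∈ X, (N ^ m) x = 0 := by
  have h1 : (N.restrict hX) ^ n = 0 := by
    ext x
    rw [restrict_pow', hN]
    rfl
  have h2 := nil_pow h1 h
  intro x hx
  have h3 := restrict_pow' hX m ⟨x, hx⟩
  rw [h2] at h3
  exact h3.symm

variable {Q5 : QuadraticForm K (Fin 5 → K)} {J : (Fin 5 → K) ≃ₗ[K] (Fin 5 → K)} {c : K} {δ : ℤ}

/-- fixed vectors of the Jordan block are singular -/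
theorem DD.sing (h : DD Q5 J c δ) {x : Fin 5 → K} (hx : J x = x) : Q5 x = 0 := by
  by_contra hQ
  apply h.n4
  have hJO := h.el.1
  have hx0 : x ≠ 0 := by
    rintro rfl
    exact hQ (map_zero Q5)
  have hpx : polar Q5 x x ≠ 0 := by
    rw [polar_self']
    exact mul_ne_zero two_ne hQ
  -- the hyperplane `x^⊥`
  have h4 : finrank K (perp Q5 (Submodule.span K {x})) = 4 := by
    have h5 := finrank_perp h.nd (Submodule.span K {x})
    rw [finrank_span_singleton hx0] at h5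
    simp at h5
    omega
  have hmem : ∀ v, v ∈ perp Q5 (Submodule.span K {x}) ↔ polar Q5 x v = 0 := by
    intro v
    rw [mem_perp]
    constructor
    · intro h6
      exact h6 x (Submodule.mem_span_singleton_self x)
    · intro h6 w hw
      obtain ⟨a, rfl⟩ := Submodule.mem_span_singleton.1 hw
      rw [polar_smul_left, h6, smul_zero]
  have hinv : ∀ v ∈ perp Q5 (Submodule.span K {x}), (en J - 1) v ∈ perp Q5 (Submodule.span K {x}) := by
    intro v hv
    rw [hmem] at hv ⊢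
    have h6 : polar Q5 (J x) (J v) = polar Q5 x v := polar_map hJO x v
    rw [hx] at h6
    rw [LinearMap.sub_apply, polar_sub_right]
    change polar Q5 x (J v) - polar Q5 x v = 0
    rw [h6, sub_self]
  have h5 := restrict_nil h.n5 hinv h4
  have hNx : (en J - 1) x = 0 := by
    rw [LinearMap.sub_apply]
    change J x - x = 0
    rw [hx, sub_self]
  have hNx4 : ((en J - 1) ^ (3 + 1) : Module.End K (Fin 5 → K)) x = 0 := by
    rw [pow_succ, Module.End.mul_apply, hNx, map_zero]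
  refine LinearMap.ext fun y => ?_
  have h6 : y - ((polar Q5 x x)⁻¹ * polar Q5 x y) • x ∈ perp Q5 (Submodule.span K {x}) := by
    rw [hmem, polar_sub_right, polar_smul_right, smul_eq_mul]
    field_simp
    ring
  have h7 := h5 _ h6
  rw [map_sub, map_smul, hNx4, smul_zero, sub_zero] at h7
  rw [h7]
  rfl

theorem DD.pow_nine (h : DD Q5 J c δ) : J ^ 9 = 1 := by
  have := Fact.mk Nat.prime_three
  exact Cfsg.Agent.H160.QUpper.unip_pow (p := 3) (c := 2) h.n5 (by norm_num)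

theorem DD.pow_three (h : DD Q5 J c δ) : J ^ 3 ≠ 1 := by
  intro h3
  apply h.n4
  have := Fact.mk Nat.prime_three
  have h4 : (en J - 1) ^ (3 ^ 1) = 0 := by
    rw [Cfsg.Agent.H160.QUpper.sub_one_pow_char, ← en_pow, pow_one, h3]
    exact sub_self _
  exact pow_eq_zero_of_le (by norm_num) h4

/-! ### the model -/

abbrev V6 := (Fin 5 → K) × K

abbrev V7 := V6 × K

/-- the form in dimension 6 -/
noncomputable def Q6 (Q5 : QuadraticForm K (Fin 5 → K)) (c : K) : QuadraticForm K V6 := Q5.prod (oneF c)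

/-- the form in dimension 7 -/
noncomputable def Q7 (Q5 : QuadraticForm K (Fin 5 → K)) (c : K) : QuadraticForm K V7 := (Q6 Q5 c).prod (oneF c)

/-- the unipotent part -/
def u6 (J : (Fin 5 → K) ≃ₗ[K] (Fin 5 → K)) : V6 ≃ₗ[K] V6 := pr J 1

/-- minus the unipotent part -/
def g6 (J : (Fin 5 → K) ≃ₗ[K] (Fin 5 → K)) : V6 ≃ₗ[K] V6 := LinearEquiv.neg K * u6 J

/-- the element of order 18 -/
def g7 (J : (Fin 5 → K) ≃ₗ[K] (Fin 5 → K)) : V7 ≃ₗ[K] V7 := pr (g6 J) 1

theorem Q6_apply (v : V6) : Q6 Q5 c v = Q5 v.1 + c * (v.2 * v.2) := rfl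

theorem Q7_apply (v : V7) : Q7 Q5 c v = Q6 Q5 c v.1 + c * (v.2 * v.2) := rfl

theorem g6_apply (v : V6) : g6 J v = - u6 J v := rfl

theorem g7_apply (v : V7) : g7 J v = (- u6 J v.1, v.2) := rfl

theorem fr6 : finrank K V6 = 6 := by simp

theorem fr7 : finrank K V7 = 7 := by simp

theorem DD.nd6 (h : DD Q5 J c δ) : Nondeg (Q6 Q5 c) := nondeg_prod h.nd (nondeg_oneF two_ne h.c0)

theorem DD.nd7 (h : DD Q5 J c δ) : Nondeg (Q7 Q5 c) := nondeg_prod h.nd6 (nondeg_oneF two_ne h.c0)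

theorem DD.sq (h : DD Q5 J c δ) : δ * δ = 1 := by
  rcases h.pm with rfl | rfl <;> norm_num

theorem DD.dc6 (h : DD Q5 J c δ) : dc (Q6 Q5 c) = 1 := by
  rw [Q6, dc_prod, h.dc5, h.dc1, h.sq]

theorem DD.dc7 (h : DD Q5 J c δ) : dc (Q7 Q5 c) = δ := by
  rw [Q7, dc_prod, h.dc6, h.dc1, one_mul]

theorem DD.el6 (h : DD Q5 J c δ) : El (Q6 Q5 c) 1 (g6 J) := by
  have h1 : El (Q6 Q5 c) 1 (LinearEquiv.neg K : V6 ≃ₗ[K] V6) :=
    el_neg two_ne h.nd6 (by rw [fr6]; decide) (by rw [h.dc6]; rfl)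
  have h2 : El (Q6 Q5 c) (1 * 1) (u6 J) := El.pr two_ne h.nd (nondeg_oneF two_ne h.c0) h.el (El.one _)
  exact h1.mul (by simpa using h2)

theorem DD.el7 (h : DD Q5 J c δ) : El (Q7 Q5 c) 1 (g7 J) := by
  have h2 : El (Q7 Q5 c) (1 * 1) (g7 J) := El.pr two_ne h.nd6 (nondeg_oneF two_ne h.c0) h.el6 (El.one _)
  simpa using h2

theorem DD.u9 (h : DD Q5 J c δ) : u6 J ^ 9 = 1 := by
  rw [u6, pr_pow, h.pow_nine, one_pow, pr_one]

theorem g6_sq (J : (Fin 5 → K) ≃ₗ[K] (Fin 5 → K)) : g6 J ^ 2 = u6 J ^ 2 := by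
  ext1 v
  change - u6 J (- u6 J v) = u6 J (u6 J v)
  rw [map_neg, neg_neg]

theorem DD.g9 (h : DD Q5 J c δ) : g6 J ^ 9 = LinearEquiv.neg K := by
  have h1 : g6 J ^ 9 = g6 J * (g6 J ^ 2) ^ 4 := by rw [← pow_mul, ← pow_succ']
  rw [h1, g6_sq, ← pow_mul, g6, mul_assoc, ← pow_succ']
  change LinearEquiv.neg K * u6 J ^ 9 = _
  rw [h.u9, mul_one]

theorem DD.g7_nine (h : DD Q5 J c δ) (v : V7) : (g7 J ^ 9) v = (- v.1, v.2) := by
  rw [g7, pr_pow, h.g9, one_pow]
  rfl

theorem DD.order (h : DD Q5 J c δ) : orderOf (g7 J) = 18 := by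
  refine orderOf_eq_of_pow_and_pow_div_prime (by norm_num) ?_ ?_
  · have h1 : g6 J ^ 18 = 1 := by
      have h2 : g6 J ^ 18 = (g6 J ^ 2) ^ 9 := by rw [← pow_mul]
      rw [h2, g6_sq, ← pow_mul, mul_comm, pow_mul, h.u9, one_pow]
    rw [g7, pr_pow, h1, one_pow, pr_one]
  · intro p hp hd
    have h5 : p = 2 ∨ p = 3 := by
      have h6 : p ∣ 2 * 3 ^ 2 := by simpa using hd
      rcases hp.dvd_mul.1 h6 with h6 | h6
      · exact Or.inl ((Nat.prime_dvd_prime_iff_eq hp Nat.prime_two).1 h6)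
      · exact Or.inr ((Nat.prime_dvd_prime_iff_eq hp Nat.prime_three).1 (hp.dvd_of_dvd_pow h6))
    rcases h5 with rfl | rfl
    · intro h6
      have h7 := h.g7_nine ((0, 1), 0)
      have h8 : (g7 J ^ 9) ((0, 1), 0) = ((0, 1), 0) := by
        have : g7 J ^ 9 = 1 := h6
        rw [this]; rfl
      rw [h8] at h7
      have h9 : (1 : K) = - 1 := congrArg (fun x : V7 => x.1.2) h7
      revert h9
      decide
    · intro h6
      have h6' : g7 J ^ 6 = 1 := h6
      have h7 : g6 J ^ 6 = 1 := by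
        ext1 v
        have h8 : (g7 J ^ 6) (v, 0) = (v, 0) := by rw [h6']; rfl
        rw [g7, pr_pow] at h8
        exact congrArg Prod.fst h8
      have h8 : u6 J ^ 6 = 1 := by
        have h9 : g6 J ^ 6 = (g6 J ^ 2) ^ 3 := by rw [← pow_mul]
        rwa [h9, g6_sq, ← pow_mul] at h7
      have h9 : u6 J ^ 3 = 1 := by
        have h10 : u6 J ^ 9 = u6 J ^ 6 * u6 J ^ 3 := by rw [← pow_add]
        rw [h.u9, h8, one_mul] at h10
        exact h10.symm
      apply h.pow_three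
      rw [u6, pr_pow] at h9
      ext1 v
      have h10 : (pr (J ^ 3) (1 ^ 3) : V6 ≃ₗ[K] V6) (v, 0) = (v, 0) := by rw [h9]; rfl
      exact congrArg Prod.fst h10

theorem pow_inv {V : Type*} [AddCommGroup V] [Module K V] {g : V ≃ₗ[K] V} {W : Submodule K V}
    (hW : ∀ w ∈ W, g w ∈ W) (n : ℕ) : ∀ w ∈ W, (g ^ n) w ∈ W := by
  induction n with
  | zero => exact fun w hw => hw
  | succ n ih =>
    intro w hw
    rw [pow_succ]
    exact ih _ (hW w hw)

/-- no invariant totally singular subspace of dimension 3 -/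
theorem DD.no_ts (h : DD Q5 J c δ) {W : Submodule K V7} (h3 : finrank K W = 3) (hs : ∀ w ∈ W, Q7 Q5 c w = 0)
    (hW : ∀ w ∈ W, g7 J w ∈ W) : False := by
  have h0 : ∀ w ∈ W, w.2 = 0 := by
    intro w hw
    have h1 := W.add_mem hw (pow_inv hW 9 w hw)
    have h2 : w + (g7 J ^ 9) w = (0, 2 * w.2) := by
      rw [h.g7_nine]
      refine Prod.ext ?_ ?_
      · simp
      · simp only [Prod.snd_add]; ring
    rw [h2] at h1
    have h4 := hs _ h1
    rw [Q7_apply] at h4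
    simp only [map_zero, zero_add] at h4
    have h5 := (mul_eq_zero.1 h4).resolve_left h.c0
    rcases mul_self_eq_zero.1 h5 with h6
    exact (mul_eq_zero.1 h6).resolve_left two_ne
  let W6 : Submodule K V6 := W.comap (LinearMap.inl K V6 K)
  have h4 : W6.map (LinearMap.inl K V6 K) = W := by
    apply le_antisymm
    · rintro _ ⟨x, hx, rfl⟩
      exact hx
    · intro w hw
      refine ⟨w.1, ?_, ?_⟩
      · change ((w.1, 0) : V7) ∈ W
        rwa [← h0 w hw]
      · change ((w.1, 0) : V7) = w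
        rw [← h0 w hw]
  have h5 : finrank K W6 = 3 := by
    have h5' := LinearEquiv.finrank_eq (Submodule.equivMapOfInjective _ (LinearMap.inl_injective (R := K) (M := V6) (M₂ := K)) W6)
    rw [h4] at h5'
    exact h5'.trans h3
  have h6 : ∀ x ∈ W6, Q6 Q5 c x = 0 := by
    intro x hx
    have h7 := hs (x, 0) hx
    rw [Q7_apply] at h7
    simpa using h7
  have h7 := dc_of_isotropic h.nd6 (m := 3) (by rw [fr6]) W6 h5 (fun x hx y hy => by
    have h8 := h6 _ (W6.add_mem hx hy)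
    rw [Q_add, h6 x hx, h6 y hy] at h8
    simpa using h8)
  rw [h.dc6, chi] at h7
  norm_num at h7

/-- eigenvectors -/
theorem DD.eig (h : DD Q5 J c δ) {w : V7} (hw : Q7 Q5 c w ≠ 0) {a : K} (ha : g7 J w = a • w) :
    ∃ t : K, t ≠ 0 ∧ Q7 Q5 c w = c * (t * t) := by
  have key : ∀ t : K, Q7 Q5 c w = c * (t * t) → ∃ t : K, t ≠ 0 ∧ Q7 Q5 c w = c * (t * t) := by
    intro t ht
    refine ⟨t, ?_, ht⟩
    rintro rfl
    apply hw
    rw [ht]
    ring
  have h1 : a = 1 ∨ a = -1 := by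
    have h2 : Q7 Q5 c (g7 J w) = Q7 Q5 c w := mem_O.1 h.el7.1 w
    rw [ha, QuadraticMap.map_smul, smul_eq_mul] at h2
    have h3 : (a * a - 1) * Q7 Q5 c w = 0 := by linear_combination h2
    have h4 := (mul_eq_zero.1 h3).resolve_right hw
    have h5 : (a - 1) * (a + 1) = 0 := by linear_combination h4
    rcases mul_eq_zero.1 h5 with h6 | h6
    · exact Or.inl (sub_eq_zero.1 h6)
    · exact Or.inr (eq_neg_of_add_eq_zero_left h6)
  rw [g7_apply] at ha
  rcases h1 with rfl | rfl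
  · rw [one_smul] at ha
    have h2 : u6 J w.1 = - w.1 := by
      have h3 : - u6 J w.1 = w.1 := congrArg Prod.fst ha
      rw [← h3, neg_neg, h3]
    have h3 : ∀ n : ℕ, (u6 J ^ n) w.1 = ((-1 : K) ^ n) • w.1 := by
      intro n
      induction n with
      | zero => rw [pow_zero, pow_zero, one_smul]; rfl
      | succ n ih =>
        rw [pow_succ', pow_succ]
        change u6 J ((u6 J ^ n) w.1) = _
        rw [ih, map_smul, h2, mul_smul, neg_one_smul]
    have h4 : w.1 = 0 := by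
      have h5 := h3 9
      rw [h.u9] at h5
      have h6 : w.1 = ((-1 : K) ^ 9) • w.1 := h5
      have h7 : (2 : K) • w.1 = 0 := by
        have h8 : ((-1 : K) ^ 9) = -1 := by norm_num
        rw [h8, neg_one_smul] at h6
        rw [two_smul]
        nth_rewrite 2 [h6]
        rw [add_neg_cancel]
      exact (smul_eq_zero.1 h7).resolve_left two_ne
    apply key w.2
    rw [Q7_apply, h4, map_zero, zero_add]
  · have h2 : w.2 = 0 := by
      have h3 : w.2 = (-1 : K) * w.2 := congrArg Prod.snd ha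
      have h4 : 2 * w.2 = 0 := by linear_combination h3
      exact (mul_eq_zero.1 h4).resolve_left two_ne
    have h3 : u6 J w.1 = w.1 := by
      have h3 : - u6 J w.1 = (-1 : K) • w.1 := congrArg Prod.fst ha
      rw [neg_one_smul, neg_inj] at h3
      exact h3
    have h4 : J w.1.1 = w.1.1 := congrArg Prod.fst h3
    apply key w.1.2
    rw [Q7_apply, Q6_apply, h.sing h4, h2]
    ring

/-! ### counting -/

theorem plane_one {R : QuadraticForm K (Fin 2 → K)} (hR : Nondeg R) (hd : dc R = 1) :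
    Nat.card {u : Fin 2 → K // R u = 0} = 1 := by
  rw [Nat.card_eq_one_iff_unique]
  have key : ∀ v : Fin 2 → K, R v = 0 → v = 0 := by
    intro v hRv
    by_contra hv
    have h3 : dc R = quadraticChar K (-1) ^ 1 := by
      refine dc_of_isotropic hR (by simp) (Submodule.span K {v}) (finrank_span_singleton hv) ?_
      intro x hx y hy
      obtain ⟨a, rfl⟩ := Submodule.mem_span_singleton.1 hx
      obtain ⟨b, rfl⟩ := Submodule.mem_span_singleton.1 hy
      rw [polar_smul_left, polar_smul_right, polar_self_of_sing hRv, smul_zero, smul_zero]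
    rw [hd, chi] at h3
    norm_num at h3
  exact ⟨⟨fun a b => Subtype.ext (by rw [key _ a.2, key _ b.2])⟩, ⟨⟨0, map_zero R⟩⟩⟩

theorem six_minus {V : Type*} [AddCommGroup V] [Module K V] [FiniteDimensional K V] {Q : QuadraticForm K V}
    (hQ : Nondeg Q) (h6 : finrank K V = 6) (hd : dc Q = 1) : Nat.card {v : V // Q v = 0} + 27 = 252 := by
  obtain ⟨R, hR, hdR⟩ := exists_form (F := K) two_ne (Or.inl rfl : (1 : ℤ) = 1 ∨ (1 : ℤ) = -1) 1
  obtain ⟨e, he⟩ := exists_iso two_ne hQ (nondeg_prod (nondeg_hyp (F := K) 2) hR) (by simp [h6]) (by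
    rw [dc_prod, dc_hyp, hdR, hd, chi]
    norm_num)
  have h4 : finrank K (Fin (1 + 1) → K) = 2 := by simp
  rw [card_iso he, card_hyp_prod, h4, plane_one hR hdR, Nat.card_zmod]
  norm_num

theorem dc_line {V : Type*} [AddCommGroup V] [Module K V] [FiniteDimensional K V] {Q : QuadraticForm K V}
    {L : Submodule K V} (h1 : finrank K L = 1) {w : V} (hw : w ∈ L) (h0 : w ≠ 0) :
    dc (Cfsg.Agent.H883.Sub.res Q L) = quadraticChar K (2 * Q w) := by
  rw [dc_eq (FiniteDimensional.basisSingleton Unit h1 (⟨w, hw⟩ : L) (fun h => h0 (congrArg Subtype.val h)))]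
  congr 1
  rw [Matrix.det_unique, LinearMap.BilinForm.toMatrix_apply, FiniteDimensional.basisSingleton_apply]
  change polar Q w w = _
  rw [polar_self']

/-- the type of the invariant nondegenerate hyperplanes -/
theorem DD.no_plus (h : DD Q5 J c δ) {W : Submodule K V7} (h6 : finrank K W = 6) (hN : ND (Q7 Q5 c) W)
    (hW : ∀ w ∈ W, g7 J w ∈ W) : Nat.card {v : V7 | v ∈ W ∧ Q7 Q5 c v = 0} + 27 = 252 := by
  have hL : finrank K (perp (Q7 Q5 c) W) = 1 := by
    have := finrank_perp h.nd7 W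
    rw [h6, fr7] at this
    omega
  have hLN := nd_perp h.nd7 hN
  have hLi := inv_perp h.el7.1 hW
  obtain ⟨⟨w, hwL⟩, hw0', hspan⟩ := finrank_eq_one_iff'.1 hL
  have hw0 : w ≠ 0 := fun h0 => hw0' (Subtype.ext h0)
  have hQw : Q7 Q5 c w ≠ 0 := by
    intro h0
    obtain ⟨u, hu, hwu⟩ := hLN w hwL hw0
    obtain ⟨a, ha⟩ := hspan ⟨u, hu⟩
    have ha' : a • w = u := congrArg Subtype.val ha
    apply hwu
    rw [← ha', polar_smul_right, polar_self_of_sing h0, smul_zero]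
  obtain ⟨a, ha⟩ := hspan ⟨_, hLi w hwL⟩
  have ha' : a • w = g7 J w := congrArg Subtype.val ha
  obtain ⟨t, ht0, ht⟩ := h.eig hQw ha'.symm
  have hdL : dc (Cfsg.Agent.H883.Sub.res (Q7 Q5 c) (perp (Q7 Q5 c) W)) = δ := by
    rw [dc_line hL hwL hw0, ht, ← h.dc1, dc_oneF]
    have h8 : 2 * (c * (t * t)) = t ^ 2 * (2 * c) := by ring
    rw [h8, qc_sq_mul ht0]
  have hdW : dc (Cfsg.Agent.H883.Sub.res (Q7 Q5 c) W) = 1 := by
    obtain ⟨-, -, e, he, -⟩ := split_of_compl (Q := Q7 Q5 c) (g := 1) (nd_on hN).isCompl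
      (fun x hx y hy => mem_perp.1 hy x hx) (fun x hx => hx) (fun x hx => hx)
    have h8 := dc_iso he
    rw [dc_prod, h.dc7] at h8
    have h9 : δ = dc (Cfsg.Agent.H883.Sub.res (Q7 Q5 c) W) * dc (Cfsg.Agent.H883.Sub.res (Q7 Q5 c) (perp (Q7 Q5 c) W)) := h8
    rw [hdL] at h9
    have h10 := h.sq
    calc dc (Cfsg.Agent.H883.Sub.res (Q7 Q5 c) W) = dc (Cfsg.Agent.H883.Sub.res (Q7 Q5 c) W) * δ * δ := by
          rw [mul_assoc, h10, mul_one]
      _ = 1 := by rw [← h9, h10]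
  have h11 := six_minus ((nd_on hN).res) h6 hdW
  have h12 : Nat.card {v : W // Cfsg.Agent.H883.Sub.res (Q7 Q5 c) W v = 0} =
      Nat.card {v : V7 | v ∈ W ∧ Q7 Q5 c v = 0} :=
    Nat.card_congr ⟨fun v => ⟨v.1.1, v.1.2, v.2⟩, fun v => ⟨⟨v.1, v.2.1⟩, v.2.2⟩, fun v => rfl, fun v => rfl⟩
  rwa [h12] at h11

/-! ### transport -/

section Tr

variable {V : Type*} [AddCommGroup V] [Module K V] [FiniteDimensional K V] {Q : QuadraticForm K V} {e : V7 ≃ₗ[K] V}

theorem comap_inv {W : Submodule K V} (hW : ∀ w ∈ W, cj e (g7 J) w ∈ W) :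
    ∀ w ∈ W.comap (e : V7 →ₗ[K] V), g7 J w ∈ W.comap (e : V7 →ₗ[K] V) := by
  intro w hw
  have h1 := hW _ hw
  change cj e (g7 J) (e w) ∈ W at h1
  rw [cj_apply'] at h1
  exact h1

theorem comap_finrank (W : Submodule K V) : finrank K (W.comap (e : V7 →ₗ[K] V)) = finrank K W := by
  have h1 := LinearEquiv.finrank_map_eq e (W.comap (e : V7 →ₗ[K] V))
  have h2 : (W.comap (e : V7 →ₗ[K] V)).map (e : V7 →ₗ[K] V) = W :=
    Submodule.map_comap_eq_of_surjective e.surjective W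
  rw [h2] at h1
  exact h1.symm

theorem DD.tr_ts (h : DD Q5 J c δ) (he : IsIso (Q7 Q5 c) Q e) {W : Submodule K V} (h3 : finrank K W = 3)
    (hs : ∀ w ∈ W, Q w = 0) (hW : ∀ w ∈ W, cj e (g7 J) w ∈ W) : False := by
  refine h.no_ts (W := W.comap (e : V7 →ₗ[K] V)) (by rw [comap_finrank, h3]) (fun w hw => ?_) (comap_inv hW)
  rw [← he]
  exact hs _ hw

theorem DD.tr_plus (h : DD Q5 J c δ) (he : IsIso (Q7 Q5 c) Q e) {W : Submodule K V} (h6 : finrank K W = 6)
    (hN : ND Q W) (hW : ∀ w ∈ W, cj e (g7 J) w ∈ W) : Nat.card {v : V | v ∈ W ∧ Q v = 0} + 27 = 252 := by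
  have h1 := h.no_plus (W := W.comap (e : V7 →ₗ[K] V)) (by rw [comap_finrank, h6]) (fun u hu hu0 => ?_) (comap_inv hW)
  · rw [← h1]
    congr 1
    refine Nat.card_congr (e.symm.toEquiv.subtypeEquiv fun v => ?_)
    change (v ∈ W ∧ Q v = 0) ↔ (e (e.symm v) ∈ W ∧ Q7 Q5 c (e.symm v) = 0)
    rw [e.apply_symm_apply, he.symm]
  · obtain ⟨v, hv, huv⟩ := hN (e u) hu (fun h0 => hu0 (e.map_eq_zero_iff.1 h0))
    refine ⟨e.symm v, ?_, ?_⟩
    · change e (e.symm v) ∈ W
      rwa [e.apply_symm_apply]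
    · rw [← he.polar, e.apply_symm_apply]
      exact huv

end Tr

end Cfsg.Agent.H327.COV.El18
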