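import Cfsg.Agent.H899.O7.Spec
import Cfsg.Agent.H816.OutEmb
import Cfsg.Agent.S0292
import Cfsg.Agent.LieClassical.OmegaReindex

/-!
# Subgroups of `Ω₇(3)` containing `G₂(3)` (S2499)

`no_double`: `Ω₇(3)` has no subgroup of order `2 |G₂(3)|`.
-/

set_option autoImplicit false

namespace Cfsg.Agent.H327.COV

open Subgroup

section gen

variable {X : Type*} [Group X] [Finite X] {p : ℕ}

theorem mem_zpowers_of_comm (hp : p.Prime) (hp2 : ¬ p ^ 2 ∣ Nat.card X)
    (hiso : ∀ (x : X) (r : ℕ), r.Prime → orderOf x ≠ p * r) {x : X} (hx : orderOf x = p) (g : X)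
    (hg : x * g = g * x) : g ∈ zpowers x := by
  have hC : ∀ {r : ℕ}, r.Prime → r ∣ Nat.card (centralizer ({x} : Set X)) → r = p := by
    intro r hr hd
    by_contra hne
    have : Fact r.Prime := ⟨hr⟩
    obtain ⟨c, hc⟩ := exists_prime_orderOf_dvd_card' r hd
    have hcx : Commute x (c : X) := (mem_centralizer_singleton_iff.1 c.2).symm
    have hco : orderOf (c : X) = r := by rw [Subgroup.orderOf_coe, hc]
    refine hiso (x * c) r hr ?_
    rw [hcx.orderOf_mul_eq_mul_orderOf_of_coprime (by
      rw [hx, hco]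
      exact (Nat.coprime_primes hp hr).2 (Ne.symm hne)), hx, hco]
  have hk := Nat.eq_prime_pow_of_unique_prime_dvd (n := Nat.card (centralizer ({x} : Set X))) Nat.card_pos.ne' hC
  set k := (Nat.card (centralizer ({x} : Set X))).primeFactorsList.length with hkd
  have hk1 : k ≤ 1 := by
    by_contra hlt
    apply hp2
    refine (pow_dvd_pow p (show 2 ≤ k by omega)).trans ?_
    rw [← hk]
    exact Subgroup.card_subgroup_dvd_card _
  have hle : zpowers x ≤ centralizer ({x} : Set X) := by
    rw [zpowers_le]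
    exact mem_centralizer_singleton_iff.2 rfl
  have heq : zpowers x = centralizer ({x} : Set X) := by
    refine Subgroup.eq_of_le_of_card_ge hle ?_
    rw [hk, Nat.card_zpowers, hx]
    exact (Nat.pow_le_pow_right hp.pos hk1).trans (by rw [pow_one])
  rw [heq]
  exact mem_centralizer_singleton_iff.2 hg.symm

theorem syl_norm [hp : Fact p.Prime] {a : ℕ} (hX : Nat.card X = p * a) (ha : ¬ p ∣ a) (P : Sylow p X) :
    Nat.card (P : Subgroup X) = p ∧ ∃ m, Nat.card (normalizer ((P : Subgroup X) : Set X)) = p * m ∧ m ∣ a ∧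
      m ≡ a [MOD p] := by
  have hp0 := hp.out.pos
  have h1 : Nat.card (P : Subgroup X) = p := by
    have h2 := P.card_eq_multiplicity
    have h3 : Nat.factorization (Nat.card X) p = 1 := by
      rw [hX, Nat.factorization_mul hp.out.ne_zero (by rintro rfl; exact ha (dvd_zero _)), Finsupp.add_apply,
        hp.out.factorization_self, Nat.factorization_eq_zero_of_not_dvd ha]
    rwa [h3, pow_one] at h2
  refine ⟨h1, ?_⟩
  have h2 : p ∣ Nat.card (normalizer ((P : Subgroup X) : Set X)) := by
    have h3 := Subgroup.card_dvd_of_le (le_normalizer (H := (P : Subgroup X)))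
    rwa [h1] at h3
  obtain ⟨m, hm⟩ := h2
  have h3 := (normalizer ((P : Subgroup X) : Set X)).index_mul_card
  have h4 := card_sylow_modEq_one p X
  have h5 : Nat.card (Sylow p X) = (normalizer ((P : Subgroup X) : Set X)).index := P.card_eq_index_normalizer
  rw [h5] at h4
  rw [hm, hX] at h3
  have h6 : (normalizer ((P : Subgroup X) : Set X)).index * m = a := by
    apply Nat.eq_of_mul_eq_mul_left hp0
    rw [← h3]
    ring
  refine ⟨m, hm, Dvd.intro_left _ h6, ?_⟩
  rw [← h6]
  have h7 := h4.mul_right m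
  rw [one_mul] at h7
  exact h7.symm

theorem norm_dvd [hp : Fact p.Prime] (hp2 : ¬ p ^ 2 ∣ Nat.card X)
    (hiso : ∀ (x : X) (r : ℕ), r.Prime → orderOf x ≠ p * r) {P : Subgroup X} (hP : Nat.card P = p) :
    Nat.card (normalizer (P : Set X)) ∣ p * (p - 1) := by
  have hcyc : IsCyclic P := isCyclic_of_prime_card hP
  obtain ⟨x, hx⟩ := hcyc.exists_generator
  have hxo : orderOf x = p := by
    rw [← hP]
    exact orderOf_eq_card_of_forall_mem_zpowers hx
  have hxo' : orderOf (x : X) = p := by rw [Subgroup.orderOf_coe, hxo]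
  have hz : zpowers (x : X) = P := by
    apply Subgroup.eq_of_le_of_card_ge
    · rw [zpowers_le]
      exact x.2
    · rw [Nat.card_zpowers, hxo', hP]
  have hC : centralizer (P : Set X) ≤ P := by
    intro g hg
    rw [← hz]
    exact mem_zpowers_of_comm hp.out hp2 hiso hxo' g (mem_centralizer_iff.1 hg x x.2)
  have h1 : Nat.card (P.normalizerMonoidHom).ker ∣ p := by
    rw [normalizerMonoidHom_ker]
    have h2 : Nat.card ((centralizer (P : Set X)).subgroupOf (normalizer (P : Set X))) ∣
        Nat.card (centralizer (P : Set X)) := card_comap_dvd_of_injective _ _ (subtype_injective _)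
    exact h2.trans (by rw [← hP]; exact Subgroup.card_dvd_of_le hC)
  have h2 : Nat.card (P.normalizerMonoidHom).range ∣ p - 1 := by
    have h3 := card_subgroup_dvd_card (P.normalizerMonoidHom).range
    rwa [IsCyclic.card_mulAut, hP, Nat.totient_prime hp.out] at h3
  have h3 : Nat.card (normalizer (P : Set X)) =
      Nat.card (P.normalizerMonoidHom).ker * Nat.card (P.normalizerMonoidHom).range := by
    rw [← Subgroup.card_mul_index (P.normalizerMonoidHom).ker, index_ker]
  rw [h3]
  exact Nat.mul_dvd_mul h1 h2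

/-- the normaliser of a Sylow subgroup of prime order in a subgroup -/
theorem norm_sub_dvd {M : Subgroup X} (P : Subgroup M) :
    Nat.card (normalizer (P : Set M)) ∣ Nat.card (normalizer ((P.map M.subtype : Subgroup X) : Set X)) := by
  have h1 := le_normalizer_map (H := P) M.subtype
  have h2 := Subgroup.card_dvd_of_le h1
  rwa [Subgroup.card_map_of_injective M.subtype_injective] at h2

end gen

open Cfsg.Agent.H899.O7.PolyList (R)
open Cfsg.Agent.H899.O7.Spec (L7 range_L7)
open Cfsg.Agent.H899.O7 (Om13)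

theorem card_L7 : Nat.card L7 = 13 * 352719360 := by
  have h := Cfsg.Agent.S0292.result (F := ZMod 3) (q := 3) (ZMod.card 3) (by decide) 3 le_rfl
  have h2 : 2 * Nat.card L7 = 3 ^ 3 ^ 2 * ((3 ^ 2 - 1) * (3 ^ 4 - 1) * (3 ^ 6 - 1)) := by
    refine h.trans ?_
    decide
  omega

theorem no_thirteen (x : L7) (r : ℕ) (hr : r.Prime) : orderOf x ≠ 13 * r := by
  intro h
  have h1 : orderOf x ∈ Set.range (orderOf : L7 → ℕ) := ⟨x, rfl⟩
  rw [range_L7, h] at h1
  exact hr.one_lt.ne' (Om13 h1)

theorem no_double (M : Subgroup L7) : Nat.card M ≠ 2 * 4245696 := by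
  intro hM
  have hp : Fact (Nat.Prime 13) := ⟨by norm_num⟩
  have hfin : Finite L7 := Nat.finite_of_card_ne_zero (by rw [card_L7]; norm_num)
  obtain ⟨P⟩ : Nonempty (Sylow 13 M) := inferInstance
  obtain ⟨h1, m, hm, hma, hmm⟩ := syl_norm (p := 13) (a := 653184) (by rw [hM]) (by norm_num) P
  have h2 : Nat.card ((P : Subgroup M).map M.subtype) = 13 := by
    rw [Subgroup.card_map_of_injective M.subtype_injective, h1]
  have h3 := norm_dvd (X := L7) (p := 13) (by rw [card_L7]; norm_num) no_thirteen h2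
  -- `P` as a Sylow subgroup of the whole group
  obtain ⟨Q, hQ⟩ := (IsPGroup.of_card (p := 13) (n := 1) (by rw [h2, pow_one]) :
    IsPGroup 13 ((P : Subgroup M).map M.subtype)).exists_le_sylow
  obtain ⟨k1, k, hk, hka, hkm⟩ := syl_norm (p := 13) card_L7 (by norm_num) Q
  have h4 : (P : Subgroup M).map M.subtype = (Q : Subgroup L7) := by
    apply Subgroup.eq_of_le_of_card_ge hQ
    rw [k1, h2]
  rw [h4, hk] at h3
  have h5 : k ∣ 12 := Nat.dvd_of_mul_dvd_mul_left (by norm_num) h3
  have h6 := norm_sub_dvd (P : Subgroup M)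
  rw [h4, hk, hm] at h6
  have h7 : m ∣ k := Nat.dvd_of_mul_dvd_mul_left (by norm_num) h6
  have h8 : k ≤ 12 := Nat.le_of_dvd (by norm_num) h5
  have h9 : k % 13 = 6 := by
    have : k % 13 = 352719360 % 13 := hkm
    omega
  have h10 : k = 6 := by omega
  rw [h10] at h7
  have h11 : m ≤ 6 := Nat.le_of_dvd (by norm_num) h7
  have h12 : m % 13 = 653184 % 13 := hmm
  omega

end Cfsg.Agent.H327.COV
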